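import Mathlib
import Cfsg.Agent.Perm.FC5

/-!
Modules for the quaternion group of order eight on which the central involution acts as `-1`.
-/

set_option autoImplicit false
set_option linter.unusedSectionVars false

namespace Cfsg.Agent.Perm

open Subgroup Inv

theorem exists_sq_add_sq_add_one {n : ℕ} (hn : Odd n) : ∃ x y : ℕ, n ∣ x ^ 2 + y ^ 2 + 1 := by
  obtain ⟨k, rfl⟩ := hn
  obtain ⟨p, -, hp, h⟩ := Nat.forall_exists_prime_gt_and_modEq 0 (q := 4 * (2 * k + 1))
    (a := 4 * k + 1) (by omega) (by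
      refine Nat.Coprime.mul_right ?_ ?_
      · simp
      · rw [← Nat.isCoprime_iff_coprime]
        exact ⟨-1, 2, by push_cast; ring⟩)
  have : Fact p.Prime := ⟨hp⟩
  have h1 : p % 4 = 1 := by
    have := h.of_mul_right (2 * k + 1)
    unfold Nat.ModEq at this
    omega
  obtain ⟨x, y, e⟩ := Nat.Prime.sq_add_sq (p := p) (by omega)
  refine ⟨x, y, ?_⟩
  rw [e, ← Nat.modEq_zero_iff_dvd]
  refine ((h.of_mul_left 4).add_right 1).trans (Nat.modEq_zero_iff_dvd.2 ⟨2, by ring⟩)

theorem isSquare_card {M : Type*} [AddCommGroup M] [Finite M] (ho : Odd (Nat.card M))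
    (I J : Module.End ℤ M) (hI : I * I = -1) (hJ : J * J = -1) (hIJ : J * I = -(I * J)) :
    IsSquare (Nat.card M) := by
  obtain ⟨x, y, c, hc⟩ := exists_sq_add_sq_add_one ho
  obtain ⟨k, hk⟩ := ho
  have h0 : ∀ m : M, Nat.card M • m = 0 := fun m => card_nsmul_eq_zero'
  have h2 : ∀ m : M, (k + 1) • (m + m) = m := fun m => by
    have := h0 m
    rw [hk] at this
    rw [← two_nsmul, ← mul_nsmul, show 2 * (k + 1) = 2 * k + 1 + 1 by ring, succ_nsmul, this,
      zero_add]
  set u : Module.End ℤ M := x • I + y • J with hu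
  have h3 : ∀ m, u (u m) = m := fun m => by
    have h4 : u * u = 1 - (x ^ 2 + y ^ 2 + 1) • 1 := by
      simp only [hu, mul_add, add_mul, smul_mul_assoc, mul_smul_comm, hI, hJ, hIJ]
      module
    rw [← Module.End.mul_apply, h4, hc]
    simp only [LinearMap.sub_apply, Module.End.one_apply, LinearMap.smul_apply, mul_nsmul, h0,
      smul_zero, sub_zero]
  have h4 : ∀ m, u ((I * J) m) = -(I * J) (u m) := fun m => by
    rw [← Module.End.mul_apply, ← Module.End.mul_apply, ← LinearMap.neg_apply]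
    congr 1
    have e1 : I * J * I = J := by rw [mul_assoc, hIJ, mul_neg, ← mul_assoc, hI]; simp
    have e2 : J * (I * J) = I := by rw [← mul_assoc, hIJ, neg_mul, mul_assoc, hJ]; simp
    simp only [hu, mul_add, add_mul, smul_mul_assoc, mul_smul_comm, e1, e2, ← mul_assoc I I, hI,
      mul_assoc I J J, hJ]
    simp [add_comm]
  have h5 : ∀ m, (I * J) ((I * J) m) = -m := fun m => by
    rw [← Module.End.mul_apply, mul_assoc, ← mul_assoc J, hIJ, neg_mul, mul_assoc, hJ]
    simp [hI]
  let A := LinearMap.eqLocus u LinearMap.id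
  refine ⟨Nat.card A, ?_⟩
  rw [← Nat.card_prod]
  refine (Nat.card_eq_of_bijective (fun a : A × A => a.1.1 + (I * J) a.2.1) ⟨fun a b e => ?_,
    fun m => ?_⟩).symm
  · have e1 := congrArg u e
    have ha : ∀ a : A, u a.1 = a.1 := fun a => a.2
    simp only [map_add, h4, ha] at e e1
    have e2 : a.1.1 = b.1.1 := by
      rw [← h2 a.1.1, ← h2 b.1.1]
      congr 1
      simpa only [add_add_add_comm, add_neg_cancel, add_zero] using congrArg₂ (· + ·) e e1
    rw [e2, add_right_inj] at e
    have e3 := congrArg (I * J) e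
    rw [h5, h5, neg_inj] at e3
    exact Prod.ext (Subtype.ext e2) (Subtype.ext e3)
  · refine ⟨(⟨(k + 1) • (m + u m), ?_⟩, ⟨-(I * J) ((k + 1) • (m - u m)), ?_⟩), ?_⟩
    · rw [LinearMap.mem_eqLocus, map_nsmul, map_add, h3, add_comm (u m)]; rfl
    · rw [LinearMap.mem_eqLocus, map_neg, h4, neg_neg, map_nsmul u, map_sub, h3, ← neg_sub,
        smul_neg, map_neg]; rfl
    · simp only [map_neg, h5, neg_neg, ← smul_add]
      rw [add_add_sub_cancel, h2]

end Cfsg.Agent.Perm
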