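import Mathlib

/-! Linear equivalences between linearly independent families. -/

set_option autoImplicit false

namespace Cfsg.Agent.Perm

theorem exists_linearEquiv_of_linearIndependent {K V ι : Type*} [Field K] [AddCommGroup V]
    [Module K V] [FiniteDimensional K V] {x y : ι → V} (hx : LinearIndependent K x)
    (hy : LinearIndependent K y) : ∃ A : V ≃ₗ[K] V, ∀ i, A (x i) = y i := by
  obtain ⟨A, hA⟩ := Submodule.exists_linearEquiv_restrict_eq
    ((Module.Basis.span hx).equiv (Module.Basis.span hy) (Equiv.refl ι))
  refine ⟨A, fun i => ?_⟩
  have := hA (Module.Basis.span hx i)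
  rw [Module.Basis.equiv_apply, Module.Basis.span_apply, Module.Basis.span_apply] at this
  exact this.symm

end Cfsg.Agent.Perm
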