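import Mathlib
import Cfsg.Agent.S0701

/-! Transitive subgroups of permutation groups and their centralisers. -/

set_option autoImplicit false

namespace Cfsg.Agent.Perm

open MulAction

/-- Transitivity of a subgroup `M` of a permutation group `G` passes to its image in the
symmetric group. -/
theorem isPretransitive_map_subtype {α : Type*} (G : Subgroup (Equiv.Perm α)) (M : Subgroup G)
    (h : IsPretransitive M α) : IsPretransitive (M.map G.subtype) α := by
  constructor
  intro a b
  obtain ⟨m, hm⟩ := exists_smul_eq M a b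
  exact ⟨⟨m.1.1, m.1, m.2, rfl⟩, hm⟩

/-- A transitive subgroup centralising a transitive group is its whole centraliser. -/
theorem eq_centralizer_of_transitive {α : Type*} (A B : Subgroup (Equiv.Perm α))
    (hA : IsPretransitive A α) (hB : IsPretransitive B α)
    (hle : B ≤ Subgroup.centralizer (A : Set (Equiv.Perm α))) :
    Subgroup.centralizer (A : Set (Equiv.Perm α)) = B := by
  refine le_antisymm ?_ hle
  intro c hc
  rcases isEmpty_or_nonempty α with hα | ⟨⟨a⟩⟩
  · rw [Subsingleton.elim c 1]; exact B.one_mem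
  obtain ⟨b, hb⟩ := exists_smul_eq B a (c a)
  have hb' : b.1 a = c a := hb
  have h1 : c⁻¹ * b.1 = 1 := by
    apply (Cfsg.Agent.S0701.result A).1 _ (Subgroup.mul_mem _ (Subgroup.inv_mem _ hc) (hle b.2)) a
    simp [hb']
  rw [inv_mul_eq_one] at h1
  rw [h1]; exact b.2

/-- Two normal subgroups with trivial intersection: one centralises the other (images in the
symmetric group). -/
theorem map_le_centralizer_of_inf_eq_bot {α : Type*} (G : Subgroup (Equiv.Perm α))
    (M N : Subgroup G) [hM : M.Normal] [hN : N.Normal] (h : M ⊓ N = ⊥) :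
    N.map G.subtype ≤
      Subgroup.centralizer ((M.map G.subtype : Subgroup (Equiv.Perm α)) : Set (Equiv.Perm α)) := by
  rintro _ ⟨n, hn, rfl⟩
  rw [Subgroup.mem_centralizer_iff]
  rintro _ ⟨m, hm, rfl⟩
  have := Subgroup.commute_of_normal_of_disjoint M N hM hN (disjoint_iff.mpr h) m n hm hn
  exact congrArg Subtype.val this

/-- A subgroup of `G` centralising a transitive subgroup has trivial point stabilisers. -/
theorem stabilizer_eq_bot_of_le_centralizer {α : Type*} (G : Subgroup (Equiv.Perm α))
    (M N : Subgroup G) (hMt : IsPretransitive M α)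
    (hle : N.map G.subtype ≤
      Subgroup.centralizer ((M.map G.subtype : Subgroup (Equiv.Perm α)) : Set (Equiv.Perm α)))
    (a : α) : stabilizer N a = ⊥ := by
  haveI := isPretransitive_map_subtype G M hMt
  rw [eq_bot_iff]
  intro n hn
  rw [Subgroup.mem_bot]
  have := (Cfsg.Agent.S0701.result (M.map G.subtype)).1 n.1.1 (hle ⟨n.1, n.2, rfl⟩) a hn
  exact Subtype.ext (Subtype.ext this)

/-- An abelian minimal normal subgroup of a finite group is elementary abelian. -/
theorem exists_prime_pow_eq_one_of_minimal_normal {G : Type*} [Group G] (M : Subgroup G)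
    [Finite M] [hMn : M.Normal] (hM : M ≠ ⊥)
    (hmin : ∀ L : Subgroup G, L.Normal → L ≤ M → L = ⊥ ∨ L = M) (hab : IsMulCommutative M) :
    ∃ p : ℕ, p.Prime ∧ ∀ m ∈ M, m ^ p = 1 := by
  have hcard : Nat.card M ≠ 1 := fun h => hM (Subgroup.card_eq_one.mp h)
  obtain ⟨p, hp, hpd⟩ := Nat.exists_prime_and_dvd hcard
  haveI := Fact.mk hp
  obtain ⟨x, hx⟩ := exists_prime_orderOf_dvd_card' p hpd
  let L : Subgroup G :=
    { carrier := {g | g ∈ M ∧ g ^ p = 1}
      one_mem' := ⟨M.one_mem, one_pow p⟩
      mul_mem' := by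
        rintro a b ⟨ha, ha'⟩ ⟨hb, hb'⟩
        refine ⟨M.mul_mem ha hb, ?_⟩
        have hc : Commute a b :=
          congrArg Subtype.val (hab.is_comm.comm (⟨a, ha⟩ : M) ⟨b, hb⟩)
        rw [hc.mul_pow, ha', hb', one_mul]
      inv_mem' := by
        rintro a ⟨ha, ha'⟩
        exact ⟨M.inv_mem ha, by rw [inv_pow, ha', inv_one]⟩ }
  have hLn : L.Normal := ⟨by
    rintro a ⟨ha, ha'⟩ g
    exact ⟨hMn.conj_mem a ha g, by rw [conj_pow, ha', mul_one, mul_inv_cancel]⟩⟩
  rcases hmin L hLn (fun _ h => h.1) with h | h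
  · exfalso
    have hxL : (x : G) ∈ L := ⟨x.2, by
      have := pow_orderOf_eq_one x
      rw [hx] at this
      exact congrArg Subtype.val this⟩
    rw [h, Subgroup.mem_bot] at hxL
    have : x = 1 := Subtype.ext hxL
    rw [this, orderOf_one] at hx
    exact hp.one_lt.ne hx
  · refine ⟨p, hp, fun m hm => ?_⟩
    rw [← h] at hm
    exact hm.2

end Cfsg.Agent.Perm
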